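import Cfsg.Agent.H834.Tool

/-!
# S5765, the row `Fi22`: kernel checks for `BoxD22` (helper78)
-/

set_option autoImplicit false
set_option maxRecDepth 100000
set_option exponentiation.threshold 5000

namespace Cfsg.Agent.SB.SporD.Fi.D22

open Cfsg.Spor Cfsg.Spor.Fi22 Cfsg.Agent.Lib.PermNet Cfsg.Agent.Lib.PermNetOrbit Cfsg.Agent.Lib.PermNetFix
open Cfsg.Agent.Fischer Cfsg.Agent.Fischer.Fi22PtsRep Cfsg.Agent.H834
open Cfsg.Agent.Fischer.Fi22Order (nws nws_ok)

/-- the mask of the points of a list of transpositions -/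
noncomputable def msk (l : List (List Gen × Gen)) : ℕ :=
  List.rec (motive := fun _ => ℕ) 0 (fun c _ ih => Nat.lor (Nat.pow 2 (twp c)) ih) l

theorem exists_of_msk {l : List (List Gen × Gen)} {q : ℕ} (h : (msk l).testBit q = true) : ∃ c ∈ l, twp c = q := by
  induction l with
  | nil => exact absurd h (by simp [msk])
  | cons c l ih =>
    have h1 : (2 ^ twp c ||| msk l).testBit q = true := h
    rw [Nat.testBit_or, Bool.or_eq_true, Nat.testBit_two_pow, decide_eq_true_eq] at h1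
    rcases h1 with h1 | h1
    · exact ⟨c, List.mem_cons_self, h1⟩
    · obtain ⟨d, hd, h2⟩ := ih h1
      exact ⟨d, List.mem_cons_of_mem _ hd, h2⟩

/-- the points commuting with `a`, `c`, `e` -/
noncomputable def K3 : ℕ := interB [([], .a), ([], .c), ([], .e)] full

/-- the points commuting with `a`, `c`, `e`, `h` -/
noncomputable def K4 : ℕ := interB [([], .a), ([], .c), ([], .e), ([], .h)] full

/-- words commuting with `a`, `c` -/
def w1 : List (List Gen) := [[.e], [.f], [.g], [.h], [.i], [.a], [.c], [.d, .h, .e, .d, .c, .d, .e, .h, .d],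
  [.b, .c, .d, .h, .e, .d, .c, .b, .a, .b, .c, .d, .e, .h, .d, .c, .b]]

/-- words commuting with `a`, `c`, `e` -/
def w2 : List (List Gen) := [[.i], [.h], [.d, .h, .e, .d, .c, .d, .e, .h, .d],
  [.f, .e, .d, .h, .g, .f, .e, .d, .c, .d, .e, .f, .g, .h, .d, .e, .f],
  [.b, .c, .d, .h, .e, .d, .c, .b, .a, .b, .c, .d, .e, .h, .d, .c, .b],
  [.f, .e, .b, .c, .d, .h, .g, .f, .e, .d, .c, .b, .a, .b, .c, .d, .e, .f, .g, .h, .d, .c, .b, .e, .f]]

/-- the hexad -/
def Hl : List (List Gen × Gen) := [([], .a), ([], .c), ([], .g), ([], .e),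
  ([.d, .h, .i, .c, .d, .h, .b, .c, .d, .e, .a, .b, .c, .d, .h, .i, .d, .e, .f, .c, .d, .e, .b, .c, .d, .h, .g, .f,
    .e, .d, .c, .b], .a),
  ([.d, .h, .i, .e, .d, .h, .b, .c, .d, .e, .a, .b, .c, .d, .h, .i, .d, .e, .f, .c, .d, .e, .b, .c, .d, .h, .g, .f,
    .e, .d, .c, .b], .a)]

/-- the base -/
def Bl : List (List Gen × Gen) := [([], .a), ([], .c), ([], .g), ([], .e), ([], .h), ([.d, .h, .e, .d], .c),
  ([.f, .e, .d, .h, .g, .f, .e, .d], .c), ([.b, .c, .d, .h, .e, .d, .c, .b], .a),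
  ([.f, .e, .b, .c, .d, .h, .g, .f, .e, .d, .c, .b], .a),
  ([.d, .e, .f, .c, .d, .e, .b, .c, .d, .h, .g, .f, .e, .d, .c, .b], .a),
  ([.d, .h, .f, .c, .d, .e, .b, .c, .d, .h, .g, .f, .e, .d, .c, .b], .a),
  ([.d, .h, .e, .f, .d, .e, .b, .c, .d, .h, .g, .f, .e, .d, .c, .b], .a),
  ([.f, .e, .d, .h, .c, .d, .e, .b, .c, .d, .h, .f, .e, .d, .c, .b], .a),
  ([.b, .c, .d, .h, .e, .f, .d, .e, .c, .d, .h, .g, .f, .e, .d, .c], .b),
  ([.i, .h, .d, .e, .c, .d, .h, .i, .f, .e, .b, .c, .d, .h, .g, .f, .e, .d, .c, .b], .a),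
  ([.i, .h, .d, .e, .c, .d, .h, .i, .d, .e, .f, .c, .d, .e, .b, .c, .d, .h, .g, .f, .e, .d, .c, .b], .a),
  ([.i, .h, .d, .e, .c, .d, .h, .i, .d, .h, .f, .c, .d, .e, .b, .c, .d, .h, .g, .f, .e, .d, .c, .b], .a),
  ([.i, .h, .d, .e, .c, .d, .h, .i, .d, .h, .e, .f, .d, .e, .b, .c, .d, .h, .g, .f, .e, .d, .c, .b], .a),
  ([.i, .h, .b, .c, .d, .e, .a, .b, .c, .d, .h, .i, .d, .h, .f, .c, .d, .e, .b, .c, .d, .h, .g, .f, .e, .d, .c,
    .b], .a),
  ([.i, .h, .b, .c, .d, .e, .a, .b, .c, .d, .h, .i, .d, .e, .f, .c, .d, .e, .b, .c, .d, .h, .g, .f, .e, .d, .c,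
    .b], .a),
  ([.d, .h, .i, .c, .d, .h, .b, .c, .d, .e, .a, .b, .c, .d, .h, .i, .d, .e, .f, .c, .d, .e, .b, .c, .d, .h, .g, .f,
    .e, .d, .c, .b], .a),
  ([.d, .h, .i, .e, .d, .h, .b, .c, .d, .e, .a, .b, .c, .d, .h, .i, .d, .e, .f, .c, .d, .e, .b, .c, .d, .h, .g, .f,
    .e, .d, .c, .b], .a)]

/-- an involution commuting with `a`, `b`, `c` -/
def u0 : List Gen := [.e, .h]

/-- an element of order three commuting with `a`, `b`, `c` -/
def v0 : List Gen := [.f, .d, .e, .c, .d, .h, .i, .b, .c, .d, .h, .e, .d, .c, .b, .a, .b, .c, .d, .e, .h, .d, .c,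
  .b, .i, .h, .d, .c, .e, .d]

/-- an involution which preserves the hexad and the base -/
def u1 : List Gen := [.b, .a, .c, .b]

/-- an element of order three which preserves the hexad and the base -/
def v1 : List Gen := [.b, .a, .d, .e, .f, .e, .d, .g, .h, .d, .e, .f, .i, .h, .d, .c, .e, .d, .h, .c, .d, .e, .b,
  .c, .d, .h, .i, .f, .e, .d, .h, .g, .e, .f, .e, .d, .a, .b]

theorem chk1 : rcB [0, 6] w1 2 5 (Nat.xor full (Nat.lor (cmk ([], .a)) (cmk ([], .c)))) = true := by decide +kernel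

theorem chk2 : rcB [0, 6, 40] w2 43 2 (Nat.xor K3 (msk Hl)) = true := by decide +kernel

theorem chk3 : Nat.beq (interB Hl K3) K3 = true := by decide +kernel

theorem chk4 : Nat.beq (interB Bl K4) K4 = true := by decide +kernel

theorem chk5 : Nat.beq (Nat.land (msk Bl) K4) K4 = true := by decide +kernel

theorem chk6 : closedB (nws [u1, v1]) K3 = true := by decide +kernel

theorem chk7 : closedB (nws [u1, v1]) K4 = true := by decide +kernel

theorem chk8 : fixAllB (nws [u0, v0]) [0, 2, 6] = true := by decide +kernel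

theorem ord_u0 : checkEq 12 (wpow (nw u0) 2) [] = true := by decide +kernel

theorem ord_v0 : checkEq 12 (wpow (nw v0) 3) [] = true := by decide +kernel

theorem ord_uv0 : checkEq 12 (wpow (nw (u0 ++ v0)) 5) [] = true := by decide +kernel

theorem ord_u1 : checkEq 12 (wpow (nw u1) 2) [] = true := by decide +kernel

theorem ord_v1 : checkEq 12 (wpow (nw v1) 3) [] = true := by decide +kernel

theorem ord_uv1 : checkEq 12 (wpow (nw (u1 ++ v1)) 5) [] = true := by decide +kernel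

theorem ne_u0 : Nat.beq (ptWord (nw u0) 16) 16 = false := by decide +kernel

theorem ne_u1 : Nat.beq (ptWord (nw u1) 0) 0 = false := by decide +kernel

theorem com_ac : (cmk ([], .a)).testBit 6 = true := by decide +kernel

theorem com_ae : (cmk ([], .a)).testBit 40 = true := by decide +kernel

theorem com_ce : (cmk ([], .c)).testBit 40 = true := by decide +kernel

end Cfsg.Agent.SB.SporD.Fi.D22
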