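import Cfsg.Agent.SB.SporD.Fi.Defs
import Cfsg.Agent.SB.SporD.Fi.D22Chk
import Cfsg.Agent.SB.Spor.Dens
import Cfsg.Agent.H836.Facts
import Cfsg.Agent.H815.InvM
import Cfsg.Agent.H830.Con22
import Cfsg.Agent.OddHalf.D8.Fi22.KTrans

/-!
# S5765, the row `Fi22`: `BoxD22` (helper78)
-/

set_option autoImplicit false

namespace Cfsg.Agent.SB.SporD.Fi

namespace D22

open Subgroup Cfsg Cfsg.Spor Cfsg.Spor.Fi22 Cfsg.Agent.Lib.PermNet Cfsg.Agent.Lib.PermNetOrbit
open Cfsg.Agent.Fischer Cfsg.Agent.Fischer.Fi22PtsRep Cfsg.Agent.H834 Cfsg.Agent.R01.FiFusion Cfsg.Agent.R01.FiFacts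
open Cfsg.Agent.Fischer.Fi22Order (nws nws_ok)
open Cfsg.Agent.OddHalf.D8.Fi22 (KTrans)

variable {G : Type*} [Group G] {D : Set G}

/-- orders two, three, five -/
structure NS (u v : G) : Prop where
  two : u ^ 2 = 1
  three : v ^ 3 = 1
  five : (u * v) ^ 5 = 1
  ne : u ≠ 1

theorem NS.conj {u v : G} (h : NS u v) (k : G) : NS (k * u * k⁻¹) (k * v * k⁻¹) where
  two := by rw [conj_pow, h.two, mul_one, mul_inv_cancel]
  three := by rw [conj_pow, h.three, mul_one, mul_inv_cancel]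
  five := by rw [conj_mul, conj_pow, h.five, mul_one, mul_inv_cancel]
  ne := fun e => h.ne (by rw [← conj_eq_one_iff (a := k)]; exact e)

theorem NS.not_solv {u v : G} (h : NS u v) {S : Subgroup G} (hu : u ∈ S) (hv : v ∈ S) : ¬ Group.IsSolvable S :=
  fun hS => h.ne (Spor.eq_one_of_coprime hS hu hv h.two h.three h.five rfl rfl rfl)

/-- `u` maps `S` into itself -/
def Pres (u : G) (S : Set G) : Prop := ∀ x ∈ S, u * x * u⁻¹ ∈ S

theorem Pres.norm [Finite G] {u : G} {S : Set G} (h : Pres u S) : u ∈ normalizer (closure S : Set G) := by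
  refine mem_normalizer_fintype fun x hx => ?_
  have h1 : closure S ≤ (closure S).comap (MulAut.conj u).toMonoidHom := by
    rw [closure_le]
    exact fun y hy => subset_closure (h y hy)
  exact h1 hx

/-- the goal for `E` -/
def Gd (D E : Set G) : Prop := ∃ u v, NS u v ∧ Pres u (CD D E) ∧ Pres v (CD D E)

/-- the conjugate set -/
def cj (k : G) (E : Set G) : Set G := {x | k * x * k⁻¹ ∈ E}

theorem comm_conj (k : G) {x y : G} (h : Commute x y) : Commute (k * x * k⁻¹) (k * y * k⁻¹) := by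
  have h1 := h.map (MulAut.conj k)
  exact h1

theorem comm_of_conj (k : G) {x y : G} (h : Commute (k * x * k⁻¹) (k * y * k⁻¹)) : Commute x y := by
  have h1 := comm_conj k⁻¹ h
  simpa [mul_assoc] using h1

section abs

variable (K : KTrans G D)
include K

theorem mem_of_conj {k x : G} (h : k * x * k⁻¹ ∈ D) : x ∈ D := by
  have h1 := K.conj k⁻¹ _ h
  simpa [mul_assoc] using h1

theorem mem_cd_cj {k x : G} {E : Set G} : x ∈ CD D (cj k E) ↔ k * x * k⁻¹ ∈ CD D E := by
  constructor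
  · rintro ⟨h1, h2⟩
    refine ⟨K.conj k x h1, fun e he => ?_⟩
    have h3 := comm_conj k (h2 (k⁻¹ * e * k) (by simpa [cj, mul_assoc] using he))
    simpa [mul_assoc] using h3
  · rintro ⟨h1, h2⟩
    exact ⟨mem_of_conj K h1, fun e he => comm_of_conj k (h2 _ he)⟩

theorem Gd.of_cj {k : G} {E : Set G} (h : Gd D (cj k E)) : Gd D E := by
  obtain ⟨u, v, h1, h2, h3⟩ := h
  have key : ∀ w, Pres w (CD D (cj k E)) → Pres (k * w * k⁻¹) (CD D E) := fun w hw y hy => by
    have h4 := (mem_cd_cj K).1 (hw (k⁻¹ * y * k) ((mem_cd_cj K).2 (by simpa [mul_assoc] using hy)))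
    simpa [mul_assoc] using h4
  exact ⟨_, _, h1.conj k, key u h2, key v h3⟩

theorem pres_of_comm {u : G} {E : Set G} (h : ∀ e ∈ E, Commute u e) : Pres u (CD D E) := by
  rintro x ⟨h1, h2⟩
  refine ⟨K.conj u x h1, fun e he => ?_⟩
  have h3 := comm_conj u (h2 e he)
  rwa [(h e he).eq, mul_inv_cancel_right] at h3

end abs

theorem xor_tb (x y q : ℕ) (h1 : x.testBit q = true) (h2 : y.testBit q = false) : (Nat.xor x y).testBit q = true := by
  show (x ^^^ y).testBit q = true
  rw [Nat.testBit_xor, h1, h2]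
  rfl

theorem lor_tb (x y q : ℕ) (h1 : x.testBit q = false) (h2 : y.testBit q = false) : (Nat.lor x y).testBit q = false := by
  show (x ||| y).testBit q = false
  rw [Nat.testBit_or, h1, h2]
  rfl

section model

variable (m : Model G D)

theorem cmk_iff {c : List Gen × Gen} {q : ℕ} (hq : q < 3510) :
    (cmk c).testBit q = true ↔ Commute (m.t (twp c)) (m.t q) := by
  rw [m.testBit_cmk hq, m.fix_iff hq]
  rfl

theorem inter_iff {l : List (List Gen × Gen)} {q : ℕ} (hq : q < 3510) :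
    (interB l full).testBit q = true ↔ ∀ c ∈ l, Commute (m.t (twp c)) (m.t q) := by
  rw [testBit_interB, testBit_full, decide_eq_true hq]
  exact ⟨fun h c hc => (cmk_iff m hq).1 (h.2 c hc), fun h => ⟨rfl, fun c hc => (cmk_iff m hq).2 (h c hc)⟩⟩

theorem ns_of {u v : List Gen} (h2 : checkEq 12 (wpow (nw u) 2) [] = true) (h3 : checkEq 12 (wpow (nw v) 3) [] = true)
    (h5 : checkEq 12 (wpow (nw (u ++ v)) 5) [] = true) {p : ℕ} (hp : Nat.beq (ptWord (nw u) p) p = false) :
    NS (m.wd u) (m.wd v) := by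
  have key : ∀ (w : List Gen) (n : ℕ), checkEq 12 (wpow (nw w) n) [] = true → m.wd w ^ n = 1 := fun w n h => by
    apply m.φ_injective
    rw [map_pow, m.φ_wd, Fi22PtsRep.pow_eq_one h, map_one]
  refine ⟨key _ _ h2, key _ _ h3, by rw [← m.wd_append]; exact key _ _ h5, fun h => ?_⟩
  have h1 := m.φ_wd_apply u p
  rw [h, map_one, Equiv.Perm.one_apply] at h1
  exact Nat.ne_of_beq_eq_false hp h1.symm

theorem ns0 : NS (m.wd u0) (m.wd v0) := ns_of m ord_u0 ord_v0 ord_uv0 ne_u0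

theorem ns1 : NS (m.wd u1) (m.wd v1) := ns_of m ord_u1 ord_v1 ord_uv1 ne_u1

theorem fix0 {p : ℕ} (hp : p ∈ [0, 2, 6]) : Commute (m.wd u0) (m.t p) ∧ Commute (m.wd v0) (m.t p) := by
  have hlt : p < 3510 := by
    simp only [List.mem_cons, List.not_mem_nil, or_false] at hp
    omega
  have h1 := fixAllB_spec (nws_ok _) chk8 p hp
  constructor
  · exact (m.comm_iff _ hlt).2 (by rw [m.φ_wd]; exact h1 _ (List.mem_map_of_mem (by simp)))
  · exact (m.comm_iff _ hlt).2 (by rw [m.φ_wd]; exact h1 _ (List.mem_map_of_mem (by simp)))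

/-- `CD D E` is given by a closed mask -/
theorem gd_of_mask {E : Set G} {M : ℕ} (hM : closedB (nws [u1, v1]) M = true)
    (h : ∀ q < 3510, m.t q ∈ CD D E ↔ M.testBit q = true) : Gd D E := by
  have key : ∀ w ∈ [u1, v1], Pres (m.wd w) (CD D E) := fun w hw x hx => by
    obtain ⟨q, hq, rfl⟩ := m.mem_iff.1 hx.1
    rw [m.conj_t _ hq, h _ (m.φ_lt _ hq), m.φ_wd, closedB_spec (nws_ok _) hM _ (List.mem_map_of_mem hw)]
    exact (h q hq).1 hx
  exact ⟨_, _, ns1 m, key _ (by simp), key _ (by simp)⟩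

/-- `E` contains the points of `l` and is contained in the list `L` -/
theorem gd_of_list {E : Set G} {l L : List (List Gen × Gen)} {M : ℕ} (h0 : M = interB l full)
    (hM : closedB (nws [u1, v1]) M = true) (hL : Nat.beq (interB L M) M = true) (hl : ∀ c ∈ l, m.t (twp c) ∈ E)
    (hE : ∀ e ∈ E, ∃ c ∈ L, e = m.t (twp c)) : Gd D E := by
  subst h0
  refine gd_of_mask m hM fun q hq => ⟨fun h => ?_, fun h => ⟨m.t_mem hq, fun e he => ?_⟩⟩
  · exact (inter_iff m hq).2 fun c hc => (h.2 _ (hl c hc)).symm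
  · obtain ⟨c, hc, rfl⟩ := hE e he
    rw [← Nat.eq_of_beq_eq_true hL, testBit_interB] at h
    exact ((cmk_iff m hq).1 (h.2 c hc)).symm

theorem gd_four {E : Set G} (hD : E ⊆ D) (hc : ∀ a ∈ E, ∀ b ∈ E, Commute a b) (h0 : m.t 0 ∈ E) (h6 : m.t 6 ∈ E)
    (h40 : m.t 40 ∈ E) (h43 : m.t 43 ∈ E) : Gd D E := by
  have hl : ∀ c ∈ [(([] : List Gen), Gen.a), ([], .c), ([], .e), ([], .h)], m.t (twp c) ∈ E := by
    intro c hc
    simp only [List.mem_cons, List.not_mem_nil, or_false] at hc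
    rcases hc with rfl | rfl | rfl | rfl
    exacts [h0, h6, h40, h43]
  refine gd_of_list m (by rw [K4]) chk7 chk4 hl fun e he => ?_
  obtain ⟨q, hq, rfl⟩ := m.mem_iff.1 (hD he)
  have h1 : K4.testBit q = true := by
    unfold K4
    exact (inter_iff m hq).2 fun c hc' => hc _ (hl c hc') _ he
  obtain ⟨c, hc', h2⟩ := exists_of_msk (testBit_of_land chk5 h1)
  exact ⟨c, hc', by rw [h2]⟩

theorem gd_three (K : KTrans G D) {E : Set G} (hD : E ⊆ D) (hc : ∀ a ∈ E, ∀ b ∈ E, Commute a b) (h0 : m.t 0 ∈ E)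
    (h6 : m.t 6 ∈ E) (h40 : m.t 40 ∈ E) : Gd D E := by
  have hl : ∀ c ∈ [(([] : List Gen), Gen.a), ([], .c), ([], .e)], m.t (twp c) ∈ E := by
    intro c hc
    simp only [List.mem_cons, List.not_mem_nil, or_false] at hc
    rcases hc with rfl | rfl | rfl
    exacts [h0, h6, h40]
  by_cases hE : ∀ e ∈ E, ∃ c ∈ Hl, e = m.t (twp c)
  · exact gd_of_list m (by rw [K3]) chk6 chk3 hl hE
  push Not at hE
  obtain ⟨e, he, hne⟩ := hE
  obtain ⟨q, hq, rfl⟩ := m.mem_iff.1 (hD he)
  have h1 : K3.testBit q = true := by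
    unfold K3
    exact (inter_iff m hq).2 fun c hc' => hc _ (hl c hc') _ he
  have h2 : (msk Hl).testBit q = false := by
    rw [← Bool.not_eq_true]
    intro h
    obtain ⟨c, hc', h3⟩ := exists_of_msk h
    exact hne c hc' (by rw [h3])
  obtain ⟨k, -, h3, h4⟩ := m.reach (H := ⊤) (fun _ _ => mem_top _) chk2 (q := q) (xor_tb _ _ _ h1 h2)
  have h5 : ∀ p < 3510, m.t (m.φ k p) ∈ E → m.t p ∈ cj k E := fun p hp h => by
    show k * m.t p * k⁻¹ ∈ E
    rwa [m.conj_t _ hp]
  refine Gd.of_cj K (k := k) (gd_four m (fun x hx => mem_of_conj K (hD hx))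
    (fun x hx y hy => comm_of_conj k (hc _ hx _ hy)) (h5 _ (by norm_num) ?_) (h5 _ (by norm_num) ?_)
    (h5 _ (by norm_num) ?_) (h5 _ (by norm_num) ?_))
  · rwa [h3 0 (by simp)]
  · rwa [h3 6 (by simp)]
  · rwa [h3 40 (by simp)]
  · rwa [h4]

theorem t_ne {p q : ℕ} (hp : p < 3510) (hq : q < 3510) (h : p ≠ q) : m.t p ≠ m.t q := fun e => h (m.t_inj hp hq e)

theorem c06 : Commute (m.t 0) (m.t 6) := (cmk_iff m (c := ([], .a)) (by norm_num)).1 com_ac

include m in
theorem gd (K : KTrans G D) {E : Set G} (hD : E ⊆ D) (hne : E.Nonempty) (hc : ∀ a ∈ E, ∀ b ∈ E, Commute a b) :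
    Gd D E := by
  have m0 := m.t_mem (p := 0) (by norm_num)
  have m6 := m.t_mem (p := 6) (by norm_num)
  by_cases h3 : ∃ x ∈ E, ∃ y ∈ E, ∃ z ∈ E, x ≠ y ∧ x ≠ z ∧ y ≠ z
  · obtain ⟨x, hx, y, hy, z, hz, n1, n2, n3⟩ := h3
    obtain ⟨k, h1, h2, h4⟩ := K.trans3 _ m0 _ m6 _ (m.t_mem (p := 40) (by norm_num)) x (hD hx) y (hD hy) z (hD hz)
      (t_ne m (by norm_num) (by norm_num) (by norm_num)) (t_ne m (by norm_num) (by norm_num) (by norm_num))
      (t_ne m (by norm_num) (by norm_num) (by norm_num)) n1 n2 n3 (c06 m)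
      ((cmk_iff m (c := ([], .a)) (by norm_num)).1 com_ae) ((cmk_iff m (c := ([], .c)) (by norm_num)).1 com_ce)
      (hc _ hx _ hy) (hc _ hx _ hz) (hc _ hy _ hz)
    refine Gd.of_cj K (k := k) (gd_three m K (fun x hx => mem_of_conj K (hD hx))
      (fun x hx y hy => comm_of_conj k (hc _ hx _ hy)) ?_ ?_ ?_)
    · show _ ∈ E
      rwa [h1]
    · show _ ∈ E
      rwa [h2]
    · show _ ∈ E
      rwa [h4]
  obtain ⟨x, hx, y, hy, n, cxy, hE⟩ : ∃ x ∈ D, ∃ y ∈ D, x ≠ y ∧ Commute x y ∧ ∀ e ∈ E, e = x ∨ e = y := by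
    obtain ⟨x, hx⟩ := hne
    by_cases h2 : ∃ y ∈ E, x ≠ y
    · obtain ⟨y, hy, n⟩ := h2
      refine ⟨x, hD hx, y, hD hy, n, hc _ hx _ hy, fun e he => ?_⟩
      by_contra h4
      rw [not_or] at h4
      exact h3 ⟨x, hx, y, hy, e, he, n, Ne.symm h4.1, Ne.symm h4.2⟩
    · obtain ⟨y, hy, n, -, cy, -⟩ := K.nb x (hD hx) x (hD hx)
      refine ⟨x, hD hx, y, hy, n.symm, cy.symm, fun e he => Or.inl ?_⟩
      by_contra h4
      exact h2 ⟨e, he, Ne.symm h4⟩
  obtain ⟨k, h1, h2⟩ := K.trans2 _ m0 _ m6 x hx y hy (t_ne m (by norm_num) (by norm_num) (by norm_num)) n (c06 m) cxy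
  have h4 : ∀ e ∈ cj k E, Commute (m.wd u0) e ∧ Commute (m.wd v0) e := fun e he => by
    rcases hE _ he with h | h
    · rw [← h1] at h
      rw [mul_left_cancel (mul_right_cancel h)]
      exact fix0 m (by simp)
    · rw [← h2] at h
      rw [mul_left_cancel (mul_right_cancel h)]
      exact fix0 m (by simp)
  exact Gd.of_cj K (k := k) ⟨_, _, ns0 m, pres_of_comm K fun e he => (h4 e he).1, pres_of_comm K fun e he => (h4 e he).2⟩

include m in
theorem tri (K : KTrans G D) {x y z : G} (hx : x ∈ D) (hy : y ∈ D) (hz : z ∈ D) (n : x ≠ z) (cxz : Commute x z)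
    (cxy : ¬ Commute x y) (czy : ¬ Commute z y) : ¬ Group.IsSolvable (centralizer ({x, y, z} : Set G)) := by
  obtain ⟨k, rfl, rfl⟩ := K.trans2 _ (m.t_mem (p := 0) (by norm_num)) _ (m.t_mem (p := 6) (by norm_num)) x hx z hz
    (t_ne m (by norm_num) (by norm_num) (by norm_num)) n (c06 m) cxz
  obtain ⟨q, hq, h1⟩ := m.mem_iff.1 (K.conj k⁻¹ y hy)
  have h2 : y = k * m.t q * k⁻¹ := by rw [← h1]; group
  subst h2
  have h3 : (cmk ([], .a)).testBit q = false := by
    rw [← Bool.not_eq_true, cmk_iff m hq]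
    exact fun h => cxy (comm_conj k h)
  have h4 : (cmk ([], .c)).testBit q = false := by
    rw [← Bool.not_eq_true, cmk_iff m hq]
    exact fun h => czy (comm_conj k h)
  obtain ⟨l, -, h5, h6⟩ := m.reach (H := ⊤) (fun _ _ => mem_top _) chk1 (q := q)
    (xor_tb _ _ _ (by rw [testBit_full, decide_eq_true hq]) (lor_tb _ _ _ h3 h4))
  have key : ∀ w : G, (∀ p ∈ [0, 2, 6], Commute w (m.t p)) →
      k * (l * w * l⁻¹) * k⁻¹ ∈ centralizer ({k * m.t 0 * k⁻¹, k * m.t q * k⁻¹, k * m.t 6 * k⁻¹} : Set G) := by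
    intro w hw s hs
    have h7 := comm_conj l (hw 0 (by simp))
    have h8 := comm_conj l (hw 2 (by simp))
    have h9 := comm_conj l (hw 6 (by simp))
    rw [m.conj_t _ (by norm_num)] at h7 h8 h9
    rw [h5 0 (by simp)] at h7
    rw [h6] at h8
    rw [h5 6 (by simp)] at h9
    rcases hs with rfl | rfl | rfl
    exacts [(comm_conj k h7).symm, (comm_conj k h8).symm, (comm_conj k h9).symm]
  exact (((ns0 m).conj l).conj k).not_solv (key _ fun p hp => (fix0 m hp).1) (key _ fun p hp => (fix0 m hp).2)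

end model

/-! ### the factors of an involution -/

theorem rot {x y z s : G} (ht : Tri D x y z) (hs : s = x ∨ s = y ∨ s = z) :
    ∃ p q, Tri D s p q ∧ s * p * q = x * y * z ∧ (p = x ∨ p = y ∨ p = z) ∧ (q = x ∨ q = y ∨ q = z) := by
  rcases hs with rfl | rfl | rfl
  · exact ⟨y, z, ht, rfl, by simp, by simp⟩
  · exact ⟨x, z, ⟨ht.my, ht.mx, ht.mw, ht.xy.symm, ht.yw, ht.xw, ht.cxy.symm, ht.cyw, ht.cxw⟩, by rw [ht.cxy],
      by simp, by simp⟩
  · refine ⟨x, y, ⟨ht.mw, ht.mx, ht.my, ht.xw.symm, ht.yw.symm, ht.xy, ht.cxw.symm, ht.cyw.symm, ht.cxy⟩, ?_,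
      by simp, by simp⟩
    rw [← ht.cxw, mul_assoc, ← ht.cyw, mul_assoc]

theorem tri_ne (hT : IsThreeTranspositionSet D) (hN : H831.Short.NoRel D 5) {p q k x y : G} (ht : Tri D p q k)
    (hx : x ∈ D) (hy : y ∈ D) (n : x ≠ y) (cxy : Commute x y) : p * q * k ≠ x * y := by
  intro h
  have e1 : Commute p q := ht.cxy
  have e2 : Commute p k := ht.cxw
  have e3 : Commute q k := ht.cyw
  have h3 : H815.InvM.IsProd D 3 (x * y) := by
    refine ⟨[p, q, k], ?_, rfl, ?_, ?_, by rw [← h]; simp [mul_assoc]⟩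
    · simp only [List.nodup_cons, List.mem_cons, List.not_mem_nil, or_false, not_or, List.nodup_nil, and_true,
        not_false_eq_true]
      exact ⟨⟨ht.xy, ht.xw⟩, ht.yw⟩
    · simp only [List.mem_cons, List.not_mem_nil, or_false]
      rintro w (rfl | rfl | rfl)
      exacts [ht.mx, ht.my, ht.mw]
    · simp only [List.mem_cons, List.not_mem_nil, or_false]
      rintro v (rfl | rfl | rfl) w (rfl | rfl | rfl) <;>
        first | exact Commute.refl _ | assumption | (apply Commute.symm; assumption)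
  have h2 : H815.InvM.IsProd D 2 (x * y) := by
    refine ⟨[x, y], by simpa using n, rfl, ?_, ?_, by simp⟩
    · simp only [List.mem_cons, List.not_mem_nil, or_false]
      rintro w (rfl | rfl)
      exacts [hx, hy]
    · simp only [List.mem_cons, List.not_mem_nil, or_false]
      rintro v (rfl | rfl) w (rfl | rfl) <;>
        first | exact Commute.refl _ | assumption | (apply Commute.symm; assumption)
  exact absurd (H815.InvM.IsProd.unique hT hN le_rfl (by norm_num) h3 h2) (by norm_num)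

theorem key_ne (F : TFacts D) (hT : IsThreeTranspositionSet D) (hN : H831.Short.NoRel D 5) {x y z s k : G}
    (ht : Tri D x y z) (hs : s = x ∨ s = y ∨ s = z) (hk : k ∈ D)
    (hc : ∀ w, (w = x ∨ w = y ∨ w = z) → Commute w k) {p q : G} (hp : p ∈ D) (hq : q ∈ D) (n : p ≠ q)
    (cpq : Commute p q) : x * y * z * s * k ≠ p * q := by
  obtain ⟨v, w, h1, h2, hv, hw⟩ := rot ht hs
  have h3 : x * y * z * s = v * w := by
    rw [← h2, mul_assoc (s * v), ← h1.cxw, ← mul_assoc, mul_assoc s, ← h1.cxy, ← mul_assoc s, F.sq s h1.mx, one_mul]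
  rw [h3]
  by_cases h4 : k = v
  · rw [h4, h1.cyw, mul_assoc, F.sq v h1.my, mul_one]
    exact fun h => F.two p hp q hq n cpq (h ▸ h1.mw)
  by_cases h5 : k = w
  · rw [h5, mul_assoc, F.sq w h1.mw, mul_one]
    exact fun h => F.two p hp q hq n cpq (h ▸ h1.my)
  exact tri_ne hT hN ⟨h1.my, h1.mw, hk, h1.yw, Ne.symm h4, Ne.symm h5, h1.cyw, hc v hv, hc w hw⟩ hp hq n cpq

theorem invol (I : H836.Inv G D) (hT : IsThreeTranspositionSet D) (hN : H831.Short.NoRel D 5) (r : G) (hr : r * r = 1)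
    (h1 : r ≠ 1) (hD : r ∉ D) : ∃ H : Finset G, (∀ s ∈ H, s ∈ D) ∧ (∀ s ∈ H, ∀ k ∈ H, Commute s k) ∧
    ¬ 4 ∣ H.card ∧ (∀ w : G, Commute w r → ∀ s ∈ H, w * s * w⁻¹ ∈ H) ∧
      ∀ s ∈ H, ∀ k ∈ H, s ≠ k → ∀ x ∈ D, ∀ y ∈ D, x ≠ y → Commute x y → r * s * k ≠ x * y := by
  classical
  have F := I.facts
  rcases I.inv r hr with h | h | ⟨p, hp, q, hq, n, cpq, rfl⟩ | ⟨x, y, z, ht, rfl⟩
  · exact absurd h h1
  · exact absurd h hD
  · have cpq' : Commute p q := cpq
    refine ⟨{p, q}, ?_, ?_, by rw [Finset.card_pair n]; norm_num, fun w hw => ?_, ?_⟩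
    · simp only [Finset.mem_insert, Finset.mem_singleton]
      rintro s (rfl | rfl) <;> assumption
    · simp only [Finset.mem_insert, Finset.mem_singleton]
      rintro s (rfl | rfl) k (rfl | rfl) <;>
        first | exact Commute.refl _ | assumption | (apply Commute.symm; assumption)
    · simp only [Finset.mem_insert, Finset.mem_singleton]
      have h2 : p * q = w * p * w⁻¹ * (w * q * w⁻¹) := by rw [conj_mul, hw.eq, mul_inv_cancel_right]
      rintro s (rfl | rfl)
      · exact I.uniq_pair hp hq (F.conj w _ hp) (F.conj w _ hq) n cpq (comm_conj w cpq') h2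
      · exact I.uniq_pair hp hq (F.conj w _ hq) (F.conj w _ hp) n cpq (comm_conj w cpq'.symm)
          (h2.trans (comm_conj w cpq'))
    · simp only [Finset.mem_insert, Finset.mem_singleton]
      have h2 : ∀ s k, s * k = p * q → ∀ x ∈ D, ∀ y ∈ D, x ≠ y → Commute x y → p * q * s * k ≠ x * y := by
        intro s k e x hx y hy nxy _ h
        rw [mul_assoc, e, hr] at h
        exact nxy (by rw [eq_inv_of_mul_eq_one_left h.symm, inv_eq_of_mul_eq_one_left (F.sq y hy)])
      rintro s (rfl | rfl) k (rfl | rfl) nsk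
      · exact absurd rfl nsk
      · exact h2 _ _ rfl
      · exact h2 _ _ cpq.symm
      · exact absurd rfl nsk
  · obtain ⟨x', y', z', H⟩ := F.hex x y z ht
    have ht' := H.t'
    have hr' : x' * y' * z' = x * y * z := mul_left_cancel (H.prod.trans hr.symm)
    have hmem : ∀ s, s ∈ ({x, y, z, x', y', z'} : Finset G) ↔
        (s = x ∨ s = y ∨ s = z) ∨ (s = x' ∨ s = y' ∨ s = z') := by
      intro s
      simp only [Finset.mem_insert, Finset.mem_singleton, or_assoc]
    have hD' : ∀ s ∈ ({x, y, z, x', y', z'} : Finset G), s ∈ D := by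
      intro s hs
      rcases (hmem s).1 hs with (rfl | rfl | rfl) | (rfl | rfl | rfl)
      exacts [ht.mx, ht.my, ht.mw, ht'.mx, ht'.my, ht'.mw]
    have hcm : ∀ s ∈ ({x, y, z, x', y', z'} : Finset G), ∀ k ∈ ({x, y, z, x', y', z'} : Finset G), Commute s k := by
      have c1 : Commute x y := ht.cxy
      have c2 : Commute x z := ht.cxw
      have c3 : Commute y z := ht.cyw
      have c4 : Commute x' y' := ht'.cxy
      have c5 : Commute x' z' := ht'.cxw
      have c6 : Commute y' z' := ht'.cyw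
      have d1 : Commute x x' := H.caa
      have d2 : Commute x y' := H.cab
      have d3 : Commute x z' := H.cac
      have d4 : Commute y x' := H.cba
      have d5 : Commute y y' := H.cbb
      have d6 : Commute y z' := H.cbc
      have d7 : Commute z x' := H.cca
      have d8 : Commute z y' := H.ccb
      have d9 : Commute z z' := H.ccc
      intro s hs k hk
      rcases (hmem s).1 hs with (rfl | rfl | rfl) | (rfl | rfl | rfl) <;>
        rcases (hmem k).1 hk with (rfl | rfl | rfl) | (rfl | rfl | rfl) <;>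
        first | exact Commute.refl _ | assumption | (apply Commute.symm; assumption)
    refine ⟨{x, y, z, x', y', z'}, hD', hcm, ?_, fun w hw s hs => ?_, fun s hs k hk _ p hp q hq n cpq => ?_⟩
    · rw [Finset.card_insert_of_notMem (by simp [ht.xy, ht.xw, H.aa, H.ab, H.ac]),
        Finset.card_insert_of_notMem (by simp [ht.yw, H.ba, H.bb, H.bc]),
        Finset.card_insert_of_notMem (by simp [H.ca, H.cb, H.cc]),
        Finset.card_insert_of_notMem (by simp [ht'.xy, ht'.xw]), Finset.card_pair ht'.yw]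
      norm_num
    · obtain ⟨p, q, h2, h3⟩ : ∃ p q, Tri D s p q ∧ s * p * q = x * y * z := by
        rcases (hmem s).1 hs with h | h
        · obtain ⟨p, q, h2, h3, -⟩ := rot ht h
          exact ⟨p, q, h2, h3⟩
        · obtain ⟨p, q, h2, h3, -⟩ := rot ht' h
          exact ⟨p, q, h2, h3.trans hr'⟩
      have h4 := I.mem_hex H (t := w * s * w⁻¹) (u := w * p * w⁻¹) (w := w * q * w⁻¹)
        ⟨F.conj w _ h2.mx, F.conj w _ h2.my, F.conj w _ h2.mw, fun e => h2.xy (mul_left_cancel (mul_right_cancel e)),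
          fun e => h2.xw (mul_left_cancel (mul_right_cancel e)), fun e => h2.yw (mul_left_cancel (mul_right_cancel e)),
          comm_conj w h2.cxy, comm_conj w h2.cxw, comm_conj w h2.cyw⟩
        (by rw [conj_mul, conj_mul, h3, hw.eq, mul_inv_cancel_right])
      simpa only [Finset.mem_insert, Finset.mem_singleton] using h4
    · rcases (hmem s).1 hs with h | h
      · exact key_ne F hT hN ht h (hD' k hk) (fun w hw => hcm w ((hmem w).2 (Or.inl hw)) k hk) hp hq n cpq
      · rw [← hr']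
        exact key_ne F hT hN ht' h (hD' k hk) (fun w hw => hcm w ((hmem w).2 (Or.inr hw)) k hk) hp hq n cpq

/-- the model -/
def model : Model Spor.Fi22 R01.Fi22Facts.T where
  e := MulEquiv.refl _
  mem_iff' x := ⟨fun h => by
    obtain ⟨k, hk⟩ := isConj_iff.1 (show IsConj (gen .a) x from h)
    exact ⟨k, hk.symm⟩, fun ⟨k, hk⟩ => isConj_iff.2 ⟨k, hk.symm⟩⟩

theorem inv0 : H836.Inv Spor.Fi22 R01.Fi22Facts.T := by
  have h1 := H836.inv_of_iso (MulEquiv.refl Spor.Fi22)
  have h2 : KFacts.FiTT.TK (MulEquiv.refl Spor.Fi22) = R01.Fi22Facts.T := Set.image_id _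
  rwa [h2] at h1

end D22

open D22 in
/-- **`BoxD22`** -/
theorem boxD22 : BoxD22 := by
  have K := OddHalf.D8.Fi22.kTrans0
  have hT := R01.Fi22Facts.isThreeTranspositionClass_T.1
  have := model.finite
  refine ⟨R01.Fi22Facts.T, K.sq, K.ne1, K.aut, fun a ha b hb h => (K.three a ha b hb).resolve_left h,
    fun a ha b hb c hc d hd => K.uniq a ha b hb c hc d hd,
    invol inv0 hT (H831.Short.noRel_six hT H830.Con22.isT6), fun E hD hne hc => ?_,
    fun a ha b hb c hc n h1 h2 h3 => tri model K ha hb hc n h1 h2 h3⟩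
  obtain ⟨u, v, h1, h2, h3⟩ := gd model K hD hne hc
  exact h1.not_solv h2.norm h3.norm

end Cfsg.Agent.SB.SporD.Fi
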