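import Cfsg.Agent.H826.M23.Inst
import Cfsg.Agent.H837.X4
import Cfsg.Agent.H838.ThreeCl

/-!
# S5765, the row `Fi23`, the prime 3: kernel computations (helper93)
-/

set_option autoImplicit false
set_option maxRecDepth 100000

namespace Cfsg.Agent.SB.SporD.Fi.TD

open Cfsg.Agent.Lib.PermNet Cfsg.Agent.Lib.PermNetOrbit Cfsg.Agent.LThreeFi23 Cfsg.Agent.Fischer.Fi23Hom
open Cfsg.Agent.H826.M23 Cfsg.Agent.H826.M23.Data
open Cfsg.Agent.H837.X1 (eqPt rep)

/-- two words are equal -/
noncomputable def eqW (w w' : List Lt) : Bool := eqPt w w' H837.X1.ptl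

/-- the number of fixed points -/
noncomputable def nfW (w : List Lt) : ℕ := Lib.PermNetPat.pc 15 (pattern [(w, false)])

/-- `α` -/
def wal : List Lt := [.z, .j]
/-- `τ` -/
def wta : List Lt := [.a] ++ Wl
/-- `β` -/
def wbe : List Lt := [.a, .b]
/-- `x` -/
def wx : List Lt := [.a] ++ Wk
/-- `y` -/
def wy : List Lt := [.a] ++ Wm
/-- the conjugate of a word -/
def cj (g w : List Lt) : List Lt := g ++ w ++ g.reverse
/-- an element of class 3C in `Q` -/
def wc0 : List Lt := [.z, .j, .h, .i]
/-- the second centre of the Sylow subgroup -/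
def wX : List Lt := cj wbe wx ++ wx.reverse
/-- an element of `C(ζ)` which maps `⟨τ, u⟩` to the base group -/
def wg : List Lt := [.c, .b, .j, .e, .f, .d, .e, .c, .d, .h, .i, .d, .e, .f, .c, .d, .e, .b, .c, .d, .h, .g, .f, .e, .d, .c, .b, .a, .b, .c, .d, .e, .f, .g, .h, .d, .c, .b, .e, .d, .c, .f, .e, .d, .i, .h, .d, .c, .e, .d, .f, .e, .j, .i, .h, .d, .e, .c, .d, .h, .i, .d, .e, .f, .c, .d, .e, .b, .c, .d, .h, .g, .f, .e, .d, .c, .b, .a, .b, .c, .d, .e, .f, .g, .h, .d, .c, .b, .e, .d, .c, .f, .e, .d, .i, .h, .d, .c, .e, .d, .h, .i, .b, .c]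
/-- an element of order 8 in the stabilizer of the plane -/
def w8 : List Lt := [.a, .e, .f, .d, .e, .f, .h, .j, .i, .d, .h, .e, .d, .c, .b, .d, .c, .e, .d, .c, .g, .f, .e, .h, .d, .e, .f, .g, .j, .g, .f, .e, .c, .d, .h, .i, .c, .d, .h, .d, .e, .f, .g, .d, .e, .c, .d, .b, .c]
/-- an element of order 3 in the stabilizer of the plane -/
def w3 : List Lt := [.c, .b, .a, .d, .c, .b, .e, .d, .c, .f, .e, .d, .i, .h, .d, .e, .f, .c, .d, .e, .b, .c, .d, .a, .b, .c]
/-- the elements of `Q u` -/
def wh (i j k : ℕ) : List Lt := rep wx i ++ rep wy j ++ rep wz k ++ wu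

theorem al3 : eqW (rep wal 3) [] = true := by decide +kernel
theorem ta3 : eqW (rep wta 3) [] = true := by decide +kernel
theorem al_com : eqW (wal ++ cj wta wal) (cj wta wal ++ wal) = true := by decide +kernel
theorem al_z : eqW (wal ++ wz) (wz ++ wal) = true := by decide +kernel
theorem u_eq : eqW (rep (wal ++ wta) 3 ++ wu) [] = true := by decide +kernel
theorem be_eq : eqW (wta ++ wal ++ wta ++ wal ++ wal ++ wta) wbe = true := by decide +kernel
theorem u_im : im4 wu 11589 4524 6631 8003 = true := by decide +kernel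
theorem al_im : im4 wal 11589 8003 4524 6631 = true := by decide +kernel
theorem c0_eq : eqW (cj v2 wx ++ cj v3 wx.reverse ++ wz) wc0 = true := by decide +kernel
theorem c0_al : eqW (wal ++ wc0) (wc0 ++ wal) = true := by decide +kernel
theorem c0_be : eqW (wbe ++ wc0) (wc0 ++ wbe) = true := by decide +kernel
theorem X_al : eqW (wal ++ wX) (wX ++ wal) = true := by decide +kernel
theorem X_be : eqW (wbe ++ wX) (wX ++ wbe) = true := by decide +kernel
theorem X_u : eqW (wu ++ wX) (wX ++ wu) = true := by decide +kernel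
theorem x_al : eqW (wal ++ wx) (wx ++ wal) = true := by decide +kernel
theorem x_u : eqW (wu ++ wx) (wx ++ wu) = true := by decide +kernel
theorem pts : H838.Three.ptsChk [(wX, 11589, 11589), (wX, 8003, 707), (wX, 707, 494), (wx, 11589, 2322), (wx, 2322, 1698),
    (wx, 8003, 8003), (wbe, 6526, 8003), (wx, 6526, 993), (cj [.c, .b] wx, 8004, 8004), (cj [.c, .b] wy, 8004, 8004),
    (wbe, 11589, 8004), (w8, 0, 820)] = true := by decide +kernel
theorem g_ta : eqW (wg ++ wta) (wbe ++ wu ++ wg) = true := by decide +kernel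
theorem g_u : eqW (wg ++ wu) (wu ++ wg) = true := by decide +kernel
theorem g_z : eqW (wg ++ wz) (wz ++ wg) = true := by decide +kernel
theorem nine : ([0, 1, 2].all fun i => [1, 2].all fun j => mvl (rep (wh i j 0) 3) [0]) = true := by decide +kernel
theorem p0 : Nat.beq (patM wz [([], .c, false), (rp, .a, false), (rq, .a, false), ([], .z, false), ([], .j, false)])
    (mor [1698, 2322, 4524, 6631, 8003, 11589]) = true := by decide +kernel
theorem p1 : Nat.beq (patM wz [([], .a, false), (rp, .a, false), (rq, .a, false), ([], .z, false), ([], .j, false)])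
    (mor [494, 707, 4524, 6631, 8003, 11589]) = true := by decide +kernel

theorem nf0 : Nat.beq (nfW (wh 0 0 2)) 135 = true := by decide +kernel
theorem nf1 : Nat.beq (nfW (wh 1 0 1)) 135 = true := by decide +kernel
theorem nf2 : Nat.beq (nfW (wh 2 0 1)) 135 = true := by decide +kernel
theorem nfc : Nat.beq (nfW wc0) 135 = true := by decide +kernel
theorem nfA : Nat.beq (nfW wal) 351 = true := by decide +kernel
theorem nfB : Nat.beq (nfW H838.Three.y324) 324 = true := by decide +kernel
theorem nfD : Nat.beq (nfW H838.Three.y27) 27 = true := by decide +kernel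

/-- the orbit of `a` -/
noncomputable def O1 : ℕ := orbM [wx, wy, wbe, wta] 11589 2
/-- the orbit of `c` -/
noncomputable def O2 : ℕ := orbM [cj v1 wx, cj v1 wy, wu, wbe, wta] 8003 3

theorem orb : Nat.beq (Nat.lor O1 O2) (pattern [(wz, false)]) = true := by decide +kernel
theorem orb2 : Nat.beq (Lib.PermNetPat.pc 15 O2) 243 = true := by decide +kernel
theorem orb0 : Nat.beq (orbM [cj [.c, .b] wx, cj [.c, .b] wy] 11589 2)
    (mor [1698, 2322, 11589, 27862, 27899, 28454, 28628, 28932, 29489]) = true := by decide +kernel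

theorem plane : closedB (ntws [w8, w3]) (pattern [(wz, false), (wX, false)]) = true := by decide +kernel
theorem o8 : eqW (rep w8 8) [] = true := by decide +kernel
theorem o3 : eqW (rep w3 3) [] = true := by decide +kernel
theorem o13 : eqW (rep (w8 ++ w3) 13) [] = true := by decide +kernel

end Cfsg.Agent.SB.SporD.Fi.TD
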